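import Cfsg.Agent.H73.HT.BigList
import Cfsg.Agent.H120.HT.NodeY
import Cfsg.Agent.H371.HT.Three
import Cfsg.Agent.H395.HT.RowsF4
import Cfsg.Agent.H395.HT.RowsE6
import Cfsg.Agent.H395.HT.RowsE7
import Cfsg.Agent.H395.HT.RowsE8
import Cfsg.Agent.H395.HT.Row45

/-!
# S4933, part (O): the elements for the untwisted exceptional groups (helper73)

`hasElt_G2`, `hasElt_F4`, `hasElt_E6`, `hasElt3_E7`, `hasElt_E8`, `hasElt3_untw`: the glue of the generic case, the nodes
(`e = 1, 2`, helper120), the finite list (helper395) and the non-abelian cases (helper371).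
-/

set_option autoImplicit false
set_option linter.unusedSectionVars false

namespace Cfsg.Agent.H73.HT

open Cfsg.Lie Cfsg.Agent.Nodes.RGDChev Cfsg.Agent.H234.HT Cfsg.Agent.H892.HT

variable (F : Type) [Field F] [Fintype F] {p : ℕ} [Fact p.Prime] (h5 : 5 ≤ p) (hpq : ¬ p ∣ Fintype.card F)

include h5 hpq

theorem node {D : ChevalleyDatum} {l : ℕ} {M : CoxeterMatrix (Fin l)} (hp : IsType D l M)
    (he : orderOf ((Fintype.card F : ℕ) : ZMod p) = 1 ∨ orderOf ((Fintype.card F : ℕ) : ZMod p) = 2) :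
    HasElt p (D.group F) (Fintype.card F) := by
  have h := H120.HT.hasElt_node hp (F := F) (Fact.out : p.Prime) h5
  rw [Nat.card_eq_fintype_card] at h
  exact h hpq he

theorem hasElt_G2 (hpG : p ∣ Nat.card ↥(chevG2.group F)) : HasElt p (chevG2.group F) (Fintype.card F) := by
  rcases big_G2 F (by omega) hpq hpG with h | h | h | h
  · exact h
  · omega
  · exact node F h5 hpq (l := 2) (M := CoxeterMatrix.G₂) (by simp [IsType, typeList]) (Or.inl h)
  · exact node F h5 hpq (l := 2) (M := CoxeterMatrix.G₂) (by simp [IsType, typeList]) (Or.inr h)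

theorem hasElt_F4 (hpG : p ∣ Nat.card ↥(chevF4.group F)) : HasElt p (chevF4.group F) (Fintype.card F) := by
  rcases big_F4 F (by omega) hpq hpG with h | h | h | h | h
  · exact h
  · omega
  · exact node F h5 hpq (l := 4) (M := CoxeterMatrix.F₄) (by simp [IsType, typeList]) (Or.inl h)
  · exact node F h5 hpq (l := 4) (M := CoxeterMatrix.F₄) (by simp [IsType, typeList]) (Or.inr h)
  · simp only [List.mem_cons, List.not_mem_nil, or_false, Prod.mk.injEq] at h
    rcases h with ⟨he, rfl⟩ | ⟨he, rfl⟩ | ⟨he, rfl⟩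
    · exact H395.HT.F4.hasElt3_7 F hpq he
    · exact H395.HT.F4.hasElt4_5 F hpq he
    · exact H395.HT.F4.hasElt6_7 F hpq he

theorem hasElt_E6 (hpG : p ∣ Nat.card ↥(chevE6.group F)) : HasElt p (chevE6.group F) (Fintype.card F) := by
  rcases big_E6 F (by omega) hpq hpG with h | h | h | h | h
  · exact h
  · omega
  · exact node F h5 hpq (l := 6) (M := CoxeterMatrix.E₆) (by simp [IsType, typeList]) (Or.inl h)
  · exact node F h5 hpq (l := 6) (M := CoxeterMatrix.E₆) (by simp [IsType, typeList]) (Or.inr h)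
  · simp only [List.mem_cons, List.not_mem_nil, or_false, Prod.mk.injEq] at h
    rcases h with ⟨he, rfl⟩ | ⟨he, rfl⟩ | ⟨he, rfl⟩ | ⟨he, rfl⟩ | ⟨he, rfl⟩
    · exact H395.HT.E6.hasElt3_7 F hpq he
    · exact H395.HT.E6.hasElt4_5 F hpq he
    · exact H395.HT.E6.hasElt4_13 F hpq he
    · exact H395.HT.E6.hasElt4_17 F hpq he
    · exact H395.HT.E6.hasElt6_7 F hpq he

theorem hasElt3_E7 (hpG : p ∣ Nat.card ↥(chevE7.group F)) : HasElt3 p (chevE7.group F) (Fintype.card F) := by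
  rcases big_E7 F (by omega) hpq hpG with h | h | h | h | h
  · exact h.three
  · omega
  · exact (node F h5 hpq (l := 7) (M := CoxeterMatrix.E₇) (by simp [IsType, typeList]) (Or.inl h)).three
  · exact (node F h5 hpq (l := 7) (M := CoxeterMatrix.E₇) (by simp [IsType, typeList]) (Or.inr h)).three
  · simp only [List.mem_cons, List.not_mem_nil, or_false, Prod.mk.injEq] at h
    rcases h with ⟨he, rfl⟩ | ⟨he, rfl⟩ | ⟨he, rfl⟩ | ⟨he, rfl⟩ | ⟨he, rfl⟩ | ⟨he, rfl⟩ | ⟨he, rfl⟩ | ⟨he, rfl⟩ |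
      ⟨he, rfl⟩ | ⟨he, rfl⟩ | ⟨he, rfl⟩ | ⟨he, rfl⟩
    · exact (H395.HT.E7.hasElt3_7 F hpq he).three
    · exact (H395.HT.E7.hasElt3_13 F hpq he).three
    · exact (H395.HT.E7.hasElt3_19 F hpq he).three
    · exact H395.HT.E7.hasElt3_4_5 F hpq he
    · exact (H395.HT.E7.hasElt4_13 F hpq he).three
    · exact (H395.HT.E7.hasElt4_17 F hpq he).three
    · exact (H395.HT.E7.hasElt4_29 F hpq he).three
    · exact (H395.HT.E7.hasElt5_11 F hpq he).three
    · exact (H395.HT.E7.hasElt6_7 F hpq he).three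
    · exact (H395.HT.E7.hasElt6_13 F hpq he).three
    · exact (H395.HT.E7.hasElt6_19 F hpq he).three
    · exact (H395.HT.E7.hasElt10_11 F hpq he).three

theorem hasElt_E8 (hpG : p ∣ Nat.card ↥(chevE8.group F)) (hAb : Ab p ↥(chevE8.group F)) :
    HasElt p (chevE8.group F) (Fintype.card F) := by
  rcases big_E8 F (by omega) hpq hpG with h | h | h | h | h
  · exact h
  · omega
  · exact node F h5 hpq (l := 8) (M := CoxeterMatrix.E₈) (by simp [IsType, typeList]) (Or.inl h)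
  · exact node F h5 hpq (l := 8) (M := CoxeterMatrix.E₈) (by simp [IsType, typeList]) (Or.inr h)
  · simp only [List.mem_cons, List.not_mem_nil, or_false, Prod.mk.injEq] at h
    rcases h with ⟨he, rfl⟩ | ⟨he, rfl⟩ | ⟨he, rfl⟩ | ⟨he, rfl⟩ | ⟨he, rfl⟩ | ⟨he, rfl⟩ | ⟨he, rfl⟩ | ⟨he, rfl⟩ |
      ⟨he, rfl⟩ | ⟨he, rfl⟩ | ⟨he, rfl⟩ | ⟨he, rfl⟩ | ⟨he, rfl⟩ | ⟨he, rfl⟩ | ⟨he, rfl⟩ | ⟨he, rfl⟩ | ⟨he, rfl⟩ |
      ⟨he, rfl⟩ | ⟨he, rfl⟩ | ⟨he, rfl⟩ | ⟨he, rfl⟩
    · exact H395.HT.E8.hasElt3_7 F hpq he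
    · exact H395.HT.E8.hasElt3_13 F hpq he
    · exact H395.HT.E8.hasElt3_19 F hpq he
    · exact H395.HT.E8.hasElt3_31 F hpq he
    · exact H395.HT.E8.hasElt3_37 F hpq he
    · exact absurd hAb (H371.HT.not_ab_e8_five hpq)
    · exact H395.HT.E8.hasElt4_13 F hpq he
    · exact H395.HT.E8.hasElt4_17 F hpq he
    · exact H395.HT.E8.hasElt4_29 F hpq he
    · exact H395.HT.E8.hasElt4_37 F hpq he
    · exact H395.HT.E8.hasElt4_41 F hpq he
    · exact H395.HT.E8.hasElt4_53 F hpq he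
    · exact H395.HT.E8.hasElt5_11 F hpq he
    · exact H395.HT.E8.hasElt6_7 F hpq he
    · exact H395.HT.E8.hasElt6_13 F hpq he
    · exact H395.HT.E8.hasElt6_19 F hpq he
    · exact H395.HT.E8.hasElt6_31 F hpq he
    · exact H395.HT.E8.hasElt6_37 F hpq he
    · exact H395.HT.E8.hasElt8_17 F hpq he
    · exact H395.HT.E8.hasElt10_11 F hpq he
    · exact H395.HT.E8.hasElt12_13 F hpq he

/-- **all untwisted exceptional groups** -/
theorem hasElt3_untw {D : ChevalleyDatum} (hD : D ∈ [chevG2, chevF4, chevE6, chevE7, chevE8])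
    (hpG : p ∣ Nat.card ↥(D.group F)) (hAb : Ab p ↥(D.group F)) : HasElt3 p (D.group F) (Fintype.card F) := by
  simp only [List.mem_cons, List.not_mem_nil, or_false] at hD
  rcases hD with rfl | rfl | rfl | rfl | rfl
  · exact (hasElt_G2 F h5 hpq hpG).three
  · exact (hasElt_F4 F h5 hpq hpG).three
  · exact (hasElt_E6 F h5 hpq hpG).three
  · exact hasElt3_E7 F h5 hpq hpG
  · exact (hasElt_E8 F h5 hpq hpG hAb).three

end Cfsg.Agent.H73.HT
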