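import Cfsg.Agent.H73.HT.Big

/-!
# S4933, part (O), exceptional groups: the finite list (helper73)

`big_X` : `HasElt p (X.group F) |F|`, or `p = 3`, or the order `e` of `|F|` modulo `p` is 1 or 2, or `(e, p)` is in a
finite list.
-/

set_option autoImplicit false
set_option linter.unusedSectionVars false

namespace Cfsg.Agent.H73.HT

open Cfsg.Lie Cfsg.Agent.Nodes.RGDChev Cfsg.Agent.H234.HT

/-- the pairs `(e, p)`, `e ≥ 3`, `p ≥ 5`, `p = 1` modulo `e`, with `p L ≤ N` -/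
def pairs (N : ℕ) : List (ℕ × ℕ) :=
  ((List.range 61).product [5, 7, 11, 13, 17, 19, 23, 29, 31, 37, 41, 43, 47, 53, 59]).filter fun x =>
    Nat.ble 3 x.1 && Nat.beq ((x.2 - 1) % x.1) 0 && Nat.ble (x.2 * (if Nat.beq (x.1 % 2) 0 then x.1 else 2 * x.1)) N

/-- the primes from 5 to 60 -/
theorem mem_primes {p : ℕ} (hp : p.Prime) (h5 : 5 ≤ p) (h : p ≤ 60) :
    p ∈ [5, 7, 11, 13, 17, 19, 23, 29, 31, 37, 41, 43, 47, 53, 59] := by
  have h2 : ∀ k, 2 ≤ k → k ∣ p → p = k := fun k h1 h3 => by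
    rcases (Nat.dvd_prime hp).1 h3 with h4 | h4
    · omega
    · exact h4.symm
  have key : ∀ p ∈ List.range 61, 5 ≤ p → (∀ k ∈ [2, 3, 4, 5, 6, 7], p % k = 0 → p = k) →
      p ∈ [5, 7, 11, 13, 17, 19, 23, 29, 31, 37, 41, 43, 47, 53, 59] := by decide +kernel
  refine key p (List.mem_range.2 (by omega)) h5 fun k hk h4 => h2 k ?_ (Nat.dvd_of_mod_eq_zero h4)
  simp only [List.mem_cons, List.not_mem_nil, or_false] at hk
  omega

theorem pairs_G2 : pairs 12 = [] := by decide +kernel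
theorem pairs_F4 : pairs 48 = [(3, 7), (4, 5), (6, 7)] := by decide +kernel
theorem pairs_E6 : pairs 72 = [(3, 7), (4, 5), (4, 13), (4, 17), (6, 7)] := by decide +kernel
theorem pairs_E7 : pairs 126 = [(3, 7), (3, 13), (3, 19), (4, 5), (4, 13), (4, 17), (4, 29), (5, 11), (6, 7), (6, 13),
    (6, 19), (10, 11)] := by decide +kernel
theorem pairs_E8 : pairs 240 = [(3, 7), (3, 13), (3, 19), (3, 31), (3, 37), (4, 5), (4, 13), (4, 17), (4, 29), (4, 37),
    (4, 41), (4, 53), (5, 11), (6, 7), (6, 13), (6, 19), (6, 31), (6, 37), (8, 17), (10, 11), (12, 13)] := by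
  decide +kernel

/-- the case distinction -/
theorem mem_pairs {N : ℕ} (hN : N ≤ 240) {p q : ℕ} [Fact p.Prime] (hp2 : p ≠ 2) (hp3 : p ≠ 3) (hq : ¬ p ∣ q)
    (h1 : orderOf ((q : ℕ) : ZMod p) ≠ 1) (h2 : orderOf ((q : ℕ) : ZMod p) ≠ 2)
    (hb : ¬ N < p * (if Even (orderOf ((q : ℕ) : ZMod p)) then orderOf ((q : ℕ) : ZMod p) else
      2 * orderOf ((q : ℕ) : ZMod p))) : (orderOf ((q : ℕ) : ZMod p), p) ∈ pairs N := by
  have hpp : p.Prime := Fact.out
  have hp5 : 5 ≤ p := by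
    have := hpp.two_le
    by_contra hlt
    have h4 : p ≠ 4 := by rintro rfl; exact absurd hpp (by decide)
    omega
  obtain ⟨e, he⟩ : ∃ e, e = orderOf ((q : ℕ) : ZMod p) := ⟨_, rfl⟩
  have hd : e ∣ p - 1 := by
    rw [he]
    have hq0 : ((q : ℕ) : ZMod p) ≠ 0 := fun h => hq ((ZMod.natCast_eq_zero_iff _ _).1 h)
    exact orderOf_dvd_of_pow_eq_one (ZMod.pow_card_sub_one_eq_one hq0)
  rw [← he] at h1 h2 hb ⊢
  have he0 : 0 < e := Nat.pos_of_dvd_of_pos hd (by omega)
  have h3 : 3 ≤ e := by omega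
  have hb' : p * (if Even e then e else 2 * e) ≤ N := not_lt.1 hb
  have h4 : 4 ≤ (if Even e then e else 2 * e) := by
    split_ifs with h
    · obtain ⟨c, hc⟩ := h
      omega
    · omega
  have h5 : p * 4 ≤ 240 := (Nat.mul_le_mul_left p h4).trans (hb'.trans hN)
  have h6 : e ≤ (if Even e then e else 2 * e) := by split_ifs <;> omega
  have h7 : 5 * e ≤ 240 := (Nat.mul_le_mul hp5 h6).trans (hb'.trans hN)
  have he2 : (if Nat.beq (e % 2) 0 then e else 2 * e) = (if Even e then e else 2 * e) := by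
    by_cases h : Even e
    · rw [if_pos h, if_pos (by rw [Nat.beq_eq]; exact Nat.even_iff.1 h)]
    · rw [if_neg h, if_neg (fun h8 => h (Nat.even_iff.2 (by rwa [Nat.beq_eq] at h8)))]
  unfold pairs
  rw [List.mem_filter]
  refine ⟨List.pair_mem_product.2 ⟨List.mem_range.2 (by omega), mem_primes hpp hp5 (by omega)⟩, ?_⟩
  rw [Bool.and_eq_true, Bool.and_eq_true, Nat.ble_eq, Nat.ble_eq]
  refine ⟨⟨h3, ?_⟩, ?_⟩
  · rw [Nat.beq_eq]
    exact Nat.mod_eq_zero_of_dvd hd
  · show p * (if Nat.beq (e % 2) 0 then e else 2 * e) ≤ N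
    rw [he2]
    exact hb'

section

variable (F : Type) [Field F] [Fintype F] {p : ℕ} [Fact p.Prime] (hp2 : p ≠ 2) (hpq : ¬ p ∣ Fintype.card F)

include hp2 hpq

/-- the case distinction, for a datum -/
theorem big_aux {D : ChevalleyDatum} {l : ℕ} {M : CoxeterMatrix (Fin l)} (hp : IsType D l M) {degs : List ℕ}
    (hc : (D, degs) ∈ lst) (hN : D.nroots ≤ 240) {Ls : List (ℕ × ℕ)} (hL : pairs D.nroots = Ls)
    (hW : ∀ x ∈ (List.range 8).product [5, 7], x.2 ∣ degs.prod → x.1 ∣ x.2 - 1 → 3 ≤ x.1 → x ∈ Ls) (hW8 : ∀ p : ℕ, p.Prime → p ∣ degs.prod → p < 8)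
    (hpG : p ∣ Nat.card ↥(D.group F)) :
    HasElt p (D.group F) (Fintype.card F) ∨ p = 3 ∨ orderOf ((Fintype.card F : ℕ) : ZMod p) = 1 ∨
      orderOf ((Fintype.card F : ℕ) : ZMod p) = 2 ∨
      (orderOf ((Fintype.card F : ℕ) : ZMod p), p) ∈ Ls := by
  have hpp : p.Prime := Fact.out
  by_cases hp3 : p = 3
  · exact Or.inr (Or.inl hp3)
  by_cases h1 : orderOf ((Fintype.card F : ℕ) : ZMod p) = 1
  · exact Or.inr (Or.inr (Or.inl h1))
  by_cases h2 : orderOf ((Fintype.card F : ℕ) : ZMod p) = 2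
  · exact Or.inr (Or.inr (Or.inr (Or.inl h2)))
  by_cases hpW : p ∣ degs.prod
  · have h8 := hW8 p hpp hpW
    have hd : orderOf ((Fintype.card F : ℕ) : ZMod p) ∣ p - 1 := by
      have hq0 : ((Fintype.card F : ℕ) : ZMod p) ≠ 0 := fun h => hpq ((ZMod.natCast_eq_zero_iff _ _).1 h)
      exact orderOf_dvd_of_pow_eq_one (ZMod.pow_card_sub_one_eq_one hq0)
    have hpos : 0 < p - 1 := by have := hpp.two_le; omega
    have he0 := Nat.pos_of_dvd_of_pos hd hpos
    have he1 := Nat.le_of_dvd hpos hd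
    have hp57 : p ∈ [5, 7] := by
      have h9 := mem_primes hpp (by
        by_contra hlt
        have h4 : p ≠ 4 := by rintro rfl; exact absurd hpp (by decide)
        have := hpp.two_le
        omega) (by omega)
      simp only [List.mem_cons, List.not_mem_nil, or_false] at h9 ⊢
      omega
    exact Or.inr (Or.inr (Or.inr (Or.inr (hW (_, p) (List.pair_mem_product.2
      ⟨List.mem_range.2 (by omega), hp57⟩) hpW hd (by show 3 ≤ _; omega)))))
  by_cases hb : D.nroots < p * (if Even (orderOf ((Fintype.card F : ℕ) : ZMod p)) then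
      orderOf ((Fintype.card F : ℕ) : ZMod p) else 2 * orderOf ((Fintype.card F : ℕ) : ZMod p))
  · exact Or.inl (hasElt_big hp hc hp2 hpq hpW hpG hb)
  · exact Or.inr (Or.inr (Or.inr (Or.inr (hL ▸ mem_pairs hN hp2 hp3 hpq h1 h2 hb))))

end

theorem prime_lt_eight {n : ℕ} (p : ℕ) (hp : p.Prime) (hn : n ∣ (2 * 3 * 5 * 7) ^ 16) (h : p ∣ n) : p < 8 := by
  have h1 := hp.dvd_of_dvd_pow (h.trans hn)
  rcases (hp.dvd_mul).1 h1 with h2 | h2
  · rcases (hp.dvd_mul).1 h2 with h3 | h3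
    · rcases (hp.dvd_mul).1 h3 with h4 | h4
      · have := Nat.le_of_dvd (by norm_num) h4; omega
      · have := Nat.le_of_dvd (by norm_num) h4; omega
    · have := Nat.le_of_dvd (by norm_num) h3; omega
  · have := Nat.le_of_dvd (by norm_num) h2; omega

section

variable (F : Type) [Field F] [Fintype F] {p : ℕ} [Fact p.Prime] (hp2 : p ≠ 2) (hpq : ¬ p ∣ Fintype.card F)

include hp2 hpq

theorem big_G2 (hpG : p ∣ Nat.card ↥(chevG2.group F)) : HasElt p (chevG2.group F) (Fintype.card F) ∨ p = 3 ∨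
    orderOf ((Fintype.card F : ℕ) : ZMod p) = 1 ∨ orderOf ((Fintype.card F : ℕ) : ZMod p) = 2 := by
  have h := big_aux F hp2 hpq (D := chevG2) (l := 2) (M := CoxeterMatrix.G₂) (degs := [2, 6])
    (by simp [IsType, typeList]) (by simp [lst]) (by decide +kernel) (pairs_G2 : pairs chevG2.nroots = _) (by decide +kernel)
    (fun p hp h => prime_lt_eight p hp (by decide +kernel) h) hpG
  simpa using h

theorem big_F4 (hpG : p ∣ Nat.card ↥(chevF4.group F)) : HasElt p (chevF4.group F) (Fintype.card F) ∨ p = 3 ∨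
    orderOf ((Fintype.card F : ℕ) : ZMod p) = 1 ∨ orderOf ((Fintype.card F : ℕ) : ZMod p) = 2 ∨
    (orderOf ((Fintype.card F : ℕ) : ZMod p), p) ∈ [(3, 7), (4, 5), (6, 7)] := by
  have h := big_aux F hp2 hpq (D := chevF4) (l := 4) (M := CoxeterMatrix.F₄) (degs := [2, 6, 8, 12])
    (by simp [IsType, typeList]) (by simp [lst]) (by decide +kernel) (pairs_F4 : pairs chevF4.nroots = _) (by decide +kernel)
    (fun p hp h => prime_lt_eight p hp (by decide +kernel) h) hpG
  exact h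

theorem big_E6 (hpG : p ∣ Nat.card ↥(chevE6.group F)) : HasElt p (chevE6.group F) (Fintype.card F) ∨ p = 3 ∨
    orderOf ((Fintype.card F : ℕ) : ZMod p) = 1 ∨ orderOf ((Fintype.card F : ℕ) : ZMod p) = 2 ∨
    (orderOf ((Fintype.card F : ℕ) : ZMod p), p) ∈ [(3, 7), (4, 5), (4, 13), (4, 17), (6, 7)] := by
  have h := big_aux F hp2 hpq (D := chevE6) (l := 6) (M := CoxeterMatrix.E₆) (degs := [2, 5, 6, 8, 9, 12])
    (by simp [IsType, typeList]) (by simp [lst]) (by decide +kernel) (pairs_E6 : pairs chevE6.nroots = _) (by decide +kernel)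
    (fun p hp h => prime_lt_eight p hp (by decide +kernel) h) hpG
  exact h

theorem big_E7 (hpG : p ∣ Nat.card ↥(chevE7.group F)) : HasElt p (chevE7.group F) (Fintype.card F) ∨ p = 3 ∨
    orderOf ((Fintype.card F : ℕ) : ZMod p) = 1 ∨ orderOf ((Fintype.card F : ℕ) : ZMod p) = 2 ∨
    (orderOf ((Fintype.card F : ℕ) : ZMod p), p) ∈ [(3, 7), (3, 13), (3, 19), (4, 5), (4, 13), (4, 17), (4, 29),
      (5, 11), (6, 7), (6, 13), (6, 19), (10, 11)] := by
  have h := big_aux F hp2 hpq (D := chevE7) (l := 7) (M := CoxeterMatrix.E₇) (degs := [2, 6, 8, 10, 12, 14, 18])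
    (by simp [IsType, typeList]) (by simp [lst]) (by decide +kernel) (pairs_E7 : pairs chevE7.nroots = _) (by decide +kernel)
    (fun p hp h => prime_lt_eight p hp (by decide +kernel) h) hpG
  exact h

theorem big_E8 (hpG : p ∣ Nat.card ↥(chevE8.group F)) : HasElt p (chevE8.group F) (Fintype.card F) ∨ p = 3 ∨
    orderOf ((Fintype.card F : ℕ) : ZMod p) = 1 ∨ orderOf ((Fintype.card F : ℕ) : ZMod p) = 2 ∨
    (orderOf ((Fintype.card F : ℕ) : ZMod p), p) ∈ [(3, 7), (3, 13), (3, 19), (3, 31), (3, 37), (4, 5), (4, 13),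
      (4, 17), (4, 29), (4, 37), (4, 41), (4, 53), (5, 11), (6, 7), (6, 13), (6, 19), (6, 31), (6, 37), (8, 17),
      (10, 11), (12, 13)] := by
  have h := big_aux F hp2 hpq (D := chevE8) (l := 8) (M := CoxeterMatrix.E₈) (degs := [2, 8, 12, 14, 18, 20, 24, 30])
    (by simp [IsType, typeList]) (by simp [lst]) (by decide +kernel) (pairs_E8 : pairs chevE8.nroots = _) (by decide +kernel)
    (fun p hp h => prime_lt_eight p hp (by decide +kernel) h) hpG
  exact h

end

end Cfsg.Agent.H73.HT
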