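import Cfsg.Agent.H944.RootVals
import Cfsg.Agent.H73.HT.Cnt

/-!
# The eigenvalues of an element of `D.group F` of order prime to the characteristic (helper73)

`exists_eig` : `H944.RootVals.exists_vals` with the characteristic polynomial.
-/

set_option autoImplicit false
set_option linter.unusedSectionVars false

namespace Cfsg.Agent.H73.HT

open Cfsg.Agent.ChevalleyStructure.CoxeterGeom Cfsg.Agent.Tits.Roots
  Cfsg.Agent.Nodes.Reps Cfsg.Agent.Nodes.BNOf Cfsg.Agent.Nodes.RGDChev Cfsg.Agent.KFacts.RgdChevCoord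
open Cfsg.Lie Cfsg.Agent.ChevalleyStructure Cfsg.Agent.ChevalleyStructure.Elts
  Cfsg.Agent.ChevalleyStructure.RootVecTab
  Cfsg.Agent.ChevalleyStructure.CoxeterGeomTypes
  Cfsg.Agent.BpExc.TorAll Cfsg.Agent.BpExc.TorChev
open Cfsg.Agent.GpExc.Field (glMap emb coe_emb coe_glMap emb_injective)
open Cfsg.Agent.H944.RootVals
open Cfsg.Agent.H234.HT

universe u

variable {D : ChevalleyDatum} {l : ℕ} {M : CoxeterMatrix (Fin l)} (hp : IsType D l M)

/-- the exponents of the root values -/
def exv (D : ChevalleyDatum) {l N : ℕ} (v : Fin l → ZMod N) : D.Idx → ℕ :=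
  Sum.elim (fun _ => 0) (fun s : Fin D.nroots => (∑ i, (vec D l s i : ZMod N) * v i).val)

include hp in
/-- **Root values of an element of order prime to `p`, with the eigenvalues.** -/
theorem exists_eig (p : ℕ) [Fact p.Prime] {F : Type u} [Field F] [Finite F] [CharP F p] {x : ↥(D.group F)} {N : ℕ}
    (hN0 : N ≠ 0) (hN : N.Coprime p) (hx : x ^ N = 1) {ζ : AlgebraicClosure F} (hζ : IsPrimitiveRoot ζ N) :
    ∃ v : Fin l → ZMod N, (∀ d : ℕ, (∀ i, (d : ZMod N) * v i = 0) ↔ x ^ d = 1) ∧
      Eig (((x : ↥(D.group F)) : GL D.Idx F) : Matrix D.Idx D.Idx F) (algebraMap F (AlgebraicClosure F)) ζ (exv D v) := by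
  classical
  have : NeZero N := ⟨hN0⟩
  have : Fintype F := Fintype.ofFinite F
  let k := AlgebraicClosure F
  have hkch : CharP k p := charP_of_injective_algebraMap (algebraMap F k).injective p
  have hk' : HAlg p k := hAlg_closure p F
  set f : F →+* k := algebraMap F k with hf
  set x' : ↥(D.group k) := emb hp.inList f x with hx'
  have hxN : x' ^ N = 1 := by rw [hx', ← map_pow, hx, map_one]
  obtain ⟨g, hg⟩ := Cfsg.Agent.H944.TorAnyChev.exists_conj_mem_TT hp p hk' hN0 hN hxN
  set t := g * x' * g⁻¹ with ht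
  obtain ⟨c, hc⟩ := TT_diag hp hg
  have htN : t ^ N = 1 := by rw [ht, conj_pow, hxN, mul_one, mul_inv_cancel]
  -- the powers of `t`
  have hpow : ∀ d : ℕ, (((t ^ d : ↥(D.group k)) : GL D.Idx k) : Matrix D.Idx D.Idx k) =
      Matrix.diagonal (Sum.elim (fun _ => (1 : k)) (fun s : Fin D.nroots =>
        ((∏ i, c i ^ (vec D l s i) : kˣ) : k) ^ d)) := by
    intro d
    rw [Subgroup.coe_pow, Units.val_pow_eq_pow_val, hc, Matrix.diagonal_pow]
    congr 1
    funext i
    rcases i with i | i
    · simp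
    · simp
  -- the value on the simple roots
  have hsimple : ∀ j : Fin l, ∃ s : Fin D.nroots, (∏ i, c i ^ (vec D l s i) : kˣ) = c j := by
    intro j
    have hlt := NPerm.simple_lt hp.inList (lt_rank hp j)
    refine ⟨⟨D.simple j, hlt⟩, ?_⟩
    show (∏ i, c i ^ (vec D l (D.simple j) i) : kˣ) = c j
    rw [vec_simple hp j, Finset.prod_eq_single j]
    · rw [sr_self, zpow_one]
    · intro i _ hij
      rw [sr_ne hij, zpow_zero]
    · intro h
      exact absurd (Finset.mem_univ j) h
  have hcN : ∀ d : ℕ, t ^ d = 1 ↔ ∀ j, c j ^ d = 1 := by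
    intro d
    constructor
    · intro h1 j
      obtain ⟨s, hs⟩ := hsimple j
      have h2 := hpow d
      rw [h1, Subgroup.coe_one, Units.val_one] at h2
      have h3 := congrFun (congrFun h2 (Sum.inr s)) (Sum.inr s)
      rw [Matrix.one_apply_eq, Matrix.diagonal_apply_eq, Sum.elim_inr, hs, ← Units.val_pow_eq_pow_val] at h3
      exact Units.ext h3.symm
    · intro h1
      apply Subtype.ext
      apply Units.ext
      rw [hpow, Subgroup.coe_one, Units.val_one, ← Matrix.diagonal_one]
      congr 1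
      funext i
      rcases i with i | i
      · rfl
      · rw [Sum.elim_inr, ← Units.val_pow_eq_pow_val, ← Finset.prod_pow]
        have : ∀ j ∈ (Finset.univ : Finset (Fin l)), (c j ^ vec D l i j) ^ d = 1 := by
          intro j _
          rw [← zpow_natCast, ← zpow_mul, mul_comm, zpow_mul, zpow_natCast, h1, one_zpow]
        rw [Finset.prod_congr rfl this, Finset.prod_const_one, Units.val_one]
  have hcN' : ∀ j, c j ^ N = 1 := (hcN N).1 htN
  have hζu : IsPrimitiveRoot (hζ.toRootsOfUnity : kˣ) N := by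
    rw [IsPrimitiveRoot.coe_units_iff.symm]
    exact hζ
  set z : kˣ := (hζ.toRootsOfUnity : kˣ) with hz
  have hex : ∀ j, ∃ a : ℕ, z ^ a = c j := by
    intro j
    have h1 : ((c j : kˣ) : k) ^ N = 1 := by
      rw [← Units.val_pow_eq_pow_val, hcN' j, Units.val_one]
    obtain ⟨a, -, ha⟩ := hζ.eq_pow_of_pow_eq_one h1
    refine ⟨a, Units.ext ?_⟩
    rw [Units.val_pow_eq_pow_val, ← ha]
    rfl
  choose a ha using hex
  let v : Fin l → ZMod N := fun j => (a j : ZMod N)
  have hzpow : ∀ m : ℤ, z ^ m = z ^ ((m : ZMod N).val) := by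
    intro m
    rw [← zpow_natCast, ZMod.val_intCast]
    have h1 : z ^ (N : ℤ) = 1 := by rw [zpow_natCast]; exact hζu.pow_eq_one
    conv_lhs => rw [← Int.emod_add_mul_ediv m N]
    rw [zpow_add, zpow_mul, h1, one_zpow, mul_one]
  have hval : ∀ s : Fin D.nroots, (∏ i, c i ^ (vec D l s i) : kˣ) =
      z ^ (∑ i, (vec D l s i : ZMod N) * v i).val := by
    intro s
    have h1 : ∏ i, c i ^ (vec D l s i) = z ^ (∑ i, vec D l s i * (a i : ℤ)) := by
      have h2 : ∀ S : Finset (Fin l), ∏ i ∈ S, c i ^ (vec D l s i) = z ^ (∑ i ∈ S, vec D l s i * (a i : ℤ)) := by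
        intro S
        induction S using Finset.induction_on with
        | empty => simp
        | insert b S hb ih =>
          rw [Finset.prod_insert hb, Finset.sum_insert hb, zpow_add, ih, ← ha b, mul_comm (vec D l s b), zpow_mul,
            zpow_natCast]
      exact h2 _
    rw [h1, hzpow]
    congr 3
    push_cast
    rfl
  have hchart : ((t : GL D.Idx k) : Matrix D.Idx D.Idx k).charpoly =
      (((x : GL D.Idx F) : Matrix D.Idx D.Idx F).map f).charpoly := by
    rw [ht, Subgroup.coe_mul, Subgroup.coe_mul, Subgroup.coe_inv, Units.val_mul, Units.val_mul,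
      Matrix.coe_units_inv, Matrix.charpoly_units_conj, hx', coe_emb, coe_glMap]
  refine ⟨v, fun d => ?_, ?_⟩
  · have h1 : x ^ d = 1 ↔ t ^ d = 1 := by
      have h2 : t ^ d = g * x' ^ d * g⁻¹ := by rw [ht, conj_pow]
      rw [h2, conj_eq_one_iff, hx', ← map_pow]
      constructor
      · intro h; rw [h, map_one]
      · intro h
        exact emb_injective hp.inList f (by rw [h, map_one])
    rw [h1, hcN]
    refine forall_congr' fun j => ?_
    have h3 : c j ^ d = z ^ (((d : ZMod N) * v j).val) := by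
      rw [← ha j, ← pow_mul]
      have h4 := hzpow ((a j * d : ℕ) : ℤ)
      rw [zpow_natCast] at h4
      rw [h4]
      congr 2
      push_cast
      rw [mul_comm]
    rw [h3]
    constructor
    · intro h4
      rw [h4, ZMod.val_zero, pow_zero]
    · intro h4
      have h5 := (hζu.pow_eq_one_iff_dvd _).1 h4
      have h6 := Nat.eq_zero_of_dvd_of_lt h5 (ZMod.val_lt _)
      exact (ZMod.val_eq_zero _).1 h6
  · unfold Eig
    rw [← hchart, hc, Matrix.charpoly_diagonal]
    refine Finset.prod_congr rfl fun i _ => ?_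
    congr 2
    rcases i with i | i
    · simp [exv]
    · simp only [Sum.elim_inr, exv]
      rw [hval, Units.val_pow_eq_pow_val]
      rfl

end Cfsg.Agent.H73.HT
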